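import Cfsg.Agent.H30.GraphFi24A

/-!
# `Fi24`: the products of two transpositions, up to conjugacy under `Fi24'` (helper713, for helper58)
-/

set_option autoImplicit false
set_option maxRecDepth 100000

namespace Cfsg.Agent.H713.S8.Conj

open Cfsg Cfsg.Agent Subgroup
open Cfsg.Agent.R08.FiTwentyFour (L)
open Cfsg.Spor (Fi24)

/-- two pairs of distinct transpositions with the same commuting behaviour are conjugate under the derived group -/
theorem pair_conj {d e d' e' : Fi24} (hd : d ∈ L) (he : e ∈ L) (hd' : d' ∈ L) (he' : e' ∈ L) (hne : d ≠ e) (hne' : d' ≠ e')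
    (h : Commute d e ↔ Commute d' e') : ∃ g ∈ commutator Fi24, g * d * g⁻¹ = d' ∧ g * e * g⁻¹ = e' := by
  by_cases hc : Commute d e
  · exact Cfsg.Agent.R08.FiTwentyFour.trans2 hd he hd' he' hne hc.eq hne' (h.1 hc).eq
  · exact Cfsg.Agent.H30.GraphFi24.noncomm_trans hd he hd' he' hc (fun h' => hc (h.2 h'))

/-- **[CONJ]** -/
theorem conj {d e d' e' : Fi24} (hd : d ∈ L) (he : e ∈ L) (hd' : d' ∈ L) (he' : e' ∈ L) (hne : d ≠ e) (hne' : d' ≠ e')
    (h : Commute d e ↔ Commute d' e') : ∃ g ∈ commutator Fi24, g * (d * e) * g⁻¹ = d' * e' := by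
  obtain ⟨g, hg, h1, h2⟩ := pair_conj hd he hd' he' hne hne' h
  refine ⟨g, hg, ?_⟩
  rw [← h1, ← h2]
  group

/-- [CONJ] in the universally quantified form -/
theorem conj_all : ∀ d ∈ L, ∀ e ∈ L, ∀ d' ∈ L, ∀ e' ∈ L, d ≠ e → d' ≠ e' → (Commute d e ↔ Commute d' e') →
    ∃ g ∈ commutator Fi24, g * (d * e) * g⁻¹ = d' * e' :=
  fun _ hd _ he _ hd' _ he' hne hne' h => conj hd he hd' he' hne hne' h

/-- [CONJ], the commuting case -/
theorem conj_comm {d e d' e' : Fi24} (hd : d ∈ L) (he : e ∈ L) (hd' : d' ∈ L) (he' : e' ∈ L) (hne : d ≠ e) (hne' : d' ≠ e')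
    (h : Commute d e) (h' : Commute d' e') : ∃ g ∈ commutator Fi24, g * (d * e) * g⁻¹ = d' * e' :=
  conj hd he hd' he' hne hne' ⟨fun _ => h', fun _ => h⟩

/-- [CONJ], the noncommuting case -/
theorem conj_ncomm {d e d' e' : Fi24} (hd : d ∈ L) (he : e ∈ L) (hd' : d' ∈ L) (he' : e' ∈ L)
    (h : ¬ Commute d e) (h' : ¬ Commute d' e') : ∃ g ∈ commutator Fi24, g * (d * e) * g⁻¹ = d' * e' :=
  conj hd he hd' he' (fun hh => h (hh ▸ Commute.refl _)) (fun hh => h' (hh ▸ Commute.refl _))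
    ⟨fun hh => absurd hh h, fun hh => absurd hh h'⟩

end Cfsg.Agent.H713.S8.Conj
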